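import Cfsg.Agent.H542.EPX.Cells
import Cfsg.Prelude.Def_Spor_J2
import Cfsg.Prelude.Def_Spor_J3
import Cfsg.Prelude.Def_Spor_He
import Cfsg.Prelude.Def_Spor_Suz
import Cfsg.Prelude.Def_Spor_ON
import Cfsg.Prelude.Def_Spor_Fi22
import Cfsg.Prelude.Def_Spor_HN
import Cfsg.Prelude.Def_Spor_Th

/-!
# S5745, sporadic socles: the rows which orders and the index bound leave (helper805)

`Rows` : the 19 rows (family, `q`, `T`). All other pairs (sporadic `T`, family, `q`) are killed in `H805/EPX/*`: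
the glue is `spor_e8, spor_e7, spor_e6, spor_te6, spor_f4, spor_td4 : Rows → ... → Spor G`.
-/

set_option autoImplicit false

namespace Cfsg.Agent.H805.EPX

open Cfsg.Agent.H284 Cfsg.Agent.H209.EPX

/-- no stabiliser `H` with simple socle `N ≅ T`, `T` in the class `P` -/
def NoRow (P : (T : Type) → [Group T] → Prop) (G : Type) [Group G] : Prop :=
  ∀ (H N : Subgroup G) (T : Type) [Group T] (e : N ≃* (Fin 1 → T)), EPS H N e → P T → False

/-- the rows -/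
structure Rows : Prop where
  e8_2_Th : ∀ (F : Type) [Field F] [Fintype F] [IsSimpleGroup ↥(Lie.chevE8.group F)], Fintype.card F = 2 →
    NoRow (fun T _ => Spor.IsoTh T) ↥(Lie.chevE8.group F)
  e7_2_He : ∀ (F : Type) [Field F] [Fintype F] [IsSimpleGroup ↥(Lie.chevE7.group F)], Fintype.card F = 2 →
    NoRow (fun T _ => Spor.IsoHe T) ↥(Lie.chevE7.group F)
  e7_2_ON : ∀ (F : Type) [Field F] [Fintype F] [IsSimpleGroup ↥(Lie.chevE7.group F)], Fintype.card F = 2 →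
    NoRow (fun T _ => Spor.IsoON T) ↥(Lie.chevE7.group F)
  e7_2_Suz : ∀ (F : Type) [Field F] [Fintype F] [IsSimpleGroup ↥(Lie.chevE7.group F)], Fintype.card F = 2 →
    NoRow (fun T _ => Spor.IsoSuz T) ↥(Lie.chevE7.group F)
  e7_2_Fi22 : ∀ (F : Type) [Field F] [Fintype F] [IsSimpleGroup ↥(Lie.chevE7.group F)], Fintype.card F = 2 →
    NoRow (fun T _ => Spor.IsoFi22 T) ↥(Lie.chevE7.group F)
  e7_3_Fi22 : ∀ (F : Type) [Field F] [Fintype F] [IsSimpleGroup ↥(Lie.chevE7.group F)], Fintype.card F = 3 →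
    NoRow (fun T _ => Spor.IsoFi22 T) ↥(Lie.chevE7.group F)
  e6_2_He : ∀ (F : Type) [Field F] [Fintype F] [IsSimpleGroup ↥(Lie.chevE6.group F)], Fintype.card F = 2 →
    NoRow (fun T _ => Spor.IsoHe T) ↥(Lie.chevE6.group F)
  e6_3_Suz : ∀ (F : Type) [Field F] [Fintype F] [IsSimpleGroup ↥(Lie.chevE6.group F)], Fintype.card F = 3 →
    NoRow (fun T _ => Spor.IsoSuz T) ↥(Lie.chevE6.group F)
  e6_3_Fi22 : ∀ (F : Type) [Field F] [Fintype F] [IsSimpleGroup ↥(Lie.chevE6.group F)], Fintype.card F = 3 →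
    NoRow (fun T _ => Spor.IsoFi22 T) ↥(Lie.chevE6.group F)
  e6_4_Suz : ∀ (F : Type) [Field F] [Fintype F] [IsSimpleGroup ↥(Lie.chevE6.group F)], Fintype.card F = 4 →
    NoRow (fun T _ => Spor.IsoSuz T) ↥(Lie.chevE6.group F)
  e6_4_ON : ∀ (F : Type) [Field F] [Fintype F] [IsSimpleGroup ↥(Lie.chevE6.group F)], Fintype.card F = 4 →
    NoRow (fun T _ => Spor.IsoON T) ↥(Lie.chevE6.group F)
  e6_4_Fi22 : ∀ (F : Type) [Field F] [Fintype F] [IsSimpleGroup ↥(Lie.chevE6.group F)], Fintype.card F = 4 →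
    NoRow (fun T _ => Spor.IsoFi22 T) ↥(Lie.chevE6.group F)
  e6_5_HN : ∀ (F : Type) [Field F] [Fintype F] [IsSimpleGroup ↥(Lie.chevE6.group F)], Fintype.card F = 5 →
    NoRow (fun T _ => Spor.IsoHN T) ↥(Lie.chevE6.group F)
  f4_2_J2 : ∀ (F : Type) [Field F] [Fintype F] [IsSimpleGroup ↥(Lie.chevF4.group F)], Fintype.card F = 2 →
    NoRow (fun T _ => Spor.IsoJ2 T) ↥(Lie.chevF4.group F)
  te6_2_J2 : ∀ (K : Type) [Field K] [Fintype K] [IsSimpleGroup ↥(Lie.twistedE6 K 2)], Fintype.card K = 4 →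
    NoRow (fun T _ => Spor.IsoJ2 T) ↥(Lie.twistedE6 K 2)
  te6_2_J3 : ∀ (K : Type) [Field K] [Fintype K] [IsSimpleGroup ↥(Lie.twistedE6 K 2)], Fintype.card K = 4 →
    NoRow (fun T _ => Spor.IsoJ3 T) ↥(Lie.twistedE6 K 2)
  te6_2_Suz : ∀ (K : Type) [Field K] [Fintype K] [IsSimpleGroup ↥(Lie.twistedE6 K 2)], Fintype.card K = 4 →
    NoRow (fun T _ => Spor.IsoSuz T) ↥(Lie.twistedE6 K 2)
  te6_2_Fi22 : ∀ (K : Type) [Field K] [Fintype K] [IsSimpleGroup ↥(Lie.twistedE6 K 2)], Fintype.card K = 4 →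
    NoRow (fun T _ => Spor.IsoFi22 T) ↥(Lie.twistedE6 K 2)
  td4_4_J2 : ∀ (K : Type) [Field K] [Fintype K] [IsSimpleGroup ↥(Lie.twistedD4 K 4)], Fintype.card K = 64 →
    NoRow (fun T _ => Spor.IsoJ2 T) ↥(Lie.twistedD4 K 4)

end Cfsg.Agent.H805.EPX
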