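import Mathlib

/-!
# S5745, sporadic socles: the order sieve (helper805)
-/

set_option autoImplicit false

namespace Cfsg.Agent.H805.EPX

/-- the families -/
inductive Fm
  | e8 | e7 | e6 | te6 | f4 | td4

/-- numerator of the order -/
def nm : Fm → ℕ → ℕ
  | .e8, q => q ^ 120 * (q ^ 2 - 1) * (q ^ 8 - 1) * (q ^ 12 - 1) * (q ^ 14 - 1) *
      (q ^ 18 - 1) * (q ^ 20 - 1) * (q ^ 24 - 1) * (q ^ 30 - 1)
  | .e7, q => q ^ 63 * (q ^ 2 - 1) * (q ^ 6 - 1) * (q ^ 8 - 1) *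
      (q ^ 10 - 1) * (q ^ 12 - 1) * (q ^ 14 - 1) * (q ^ 18 - 1)
  | .e6, q => q ^ 36 * (q ^ 2 - 1) * (q ^ 5 - 1) * (q ^ 6 - 1) * (q ^ 8 - 1) * (q ^ 9 - 1) * (q ^ 12 - 1)
  | .te6, q => q ^ 36 * (q ^ 2 - 1) * (q ^ 5 + 1) * (q ^ 6 - 1) * (q ^ 8 - 1) * (q ^ 9 + 1) * (q ^ 12 - 1)
  | .f4, q => q ^ 24 * (q ^ 2 - 1) * (q ^ 6 - 1) * (q ^ 8 - 1) * (q ^ 12 - 1)
  | .td4, q => q ^ 12 * (q ^ 2 - 1) * (q ^ 6 - 1) * (q ^ 8 + q ^ 4 + 1)

/-- denominator -/
def dn : Fm → ℕ → ℕ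
  | .e8, _ => 1
  | .e7, q => Nat.gcd 2 (q - 1)
  | .e6, q => Nat.gcd 3 (q - 1)
  | .te6, q => Nat.gcd 3 (q + 1)
  | .f4, _ => 1
  | .td4, _ => 1

theorem nm_mono (f : Fm) : Monotone (nm f) := by
  intro a b h
  cases f <;> simp only [nm] <;> gcongr

theorem dn_le (f : Fm) (q : ℕ) : dn f q ≤ 3 := by
  cases f <;> simp only [dn]
  · omega
  · exact (Nat.gcd_le_left _ (by norm_num)).trans (by norm_num)
  · exact Nat.gcd_le_left _ (by norm_num)
  · exact Nat.gcd_le_left _ (by norm_num)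
  · omega
  · omega

/-- necessary for prime powers -/
def pp (q : ℕ) : Bool := [2, 3, 5, 7, 11, 13].all fun p => !(Nat.beq (q % p) 0) || Nat.beq (p ^ 40 % q) 0

theorem pp_of {q : ℕ} (hq : IsPrimePow q) (hlt : q < 2 ^ 40) : pp q = true := by
  unfold pp
  rw [List.all_eq_true]
  intro p hp
  by_cases h : q % p = 0
  · obtain ⟨r, k, hr, hk, rfl⟩ := hq
    have hpp : p.Prime := by
      simp only [List.mem_cons, List.not_mem_nil, or_false] at hp
      rcases hp with rfl | rfl | rfl | rfl | rfl | rfl <;> norm_num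
    have h1 := hpp.dvd_of_dvd_pow (Nat.dvd_of_mod_eq_zero h)
    rw [Nat.prime_dvd_prime_iff_eq hpp hr.nat_prime] at h1
    subst h1
    have h2 : k < 40 := by
      by_contra hcon
      push Not at hcon
      have h3 : 2 ^ k ≤ p ^ k := Nat.pow_le_pow_left hpp.two_le k
      have h4 : 2 ^ 40 ≤ 2 ^ k := Nat.pow_le_pow_right (by norm_num) hcon
      omega
    rw [Bool.or_eq_true]
    right
    rw [Nat.beq_eq]
    exact Nat.mod_eq_zero_of_dvd (pow_dvd_pow _ h2.le)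
  · rw [Bool.or_eq_true]
    left
    rw [Bool.not_eq_true']
    exact Bool.eq_false_iff.2 fun h2 => h (by rw [Nat.beq_eq] at h2; exact h2)

/-- a single `q` is excluded or in the list -/
def okq (f : Fm) (n B : ℕ) (L : List ℕ) (q : ℕ) : Bool :=
  Nat.ble q 1 || !(pp q) || !(Nat.beq (nm f q % (dn f q * n)) 0) || Nat.blt (dn f q * B) (nm f q) ||
    L.any (Nat.beq q)

theorem mem_of_okq {f : Fm} {n B : ℕ} {L : List ℕ} {q : ℕ} (h : okq f n B L q = true) (hq : IsPrimePow q)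
    (hlt : q < 2 ^ 40) {C : ℕ} (hC : dn f q * C = nm f q) (hn : n ∣ C) (hB : C ≤ B) : q ∈ L := by
  unfold okq at h
  rw [Bool.or_eq_true, Bool.or_eq_true, Bool.or_eq_true, Bool.or_eq_true] at h
  rcases h with (((h | h) | h) | h) | h
  · have := Nat.le_of_ble_eq_true h
    have := hq.two_le
    omega
  · rw [pp_of hq hlt] at h
    exact absurd h (by decide)
  · exfalso
    have h1 : nm f q % (dn f q * n) = 0 := by
      rw [← hC]
      exact Nat.mod_eq_zero_of_dvd (Nat.mul_dvd_mul_left _ hn)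
    rw [h1] at h
    exact absurd h (by decide)
  · exfalso
    have h1 : dn f q * B < nm f q := by
      unfold Nat.blt at h
      exact Nat.le_of_ble_eq_true h
    have h2 : dn f q * C ≤ dn f q * B := Nat.mul_le_mul_left _ hB
    omega
  · obtain ⟨x, hx, h1⟩ := List.any_eq_true.1 h
    rw [Nat.beq_eq] at h1
    exact h1 ▸ hx

/-- `∀ i < k` -/
def allb (p : ℕ → Bool) : ℕ → Bool
  | 0 => true
  | k + 1 => p k && allb p k

theorem allb_iff {p : ℕ → Bool} {k : ℕ} (h : allb p k = true) {i : ℕ} (hi : i < k) : p i = true := by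
  induction k with
  | zero => omega
  | succ k ih =>
    rw [allb, Bool.and_eq_true] at h
    rcases (by omega : i = k ∨ i < k) with rfl | h1
    · exact h.1
    · exact ih h.2 h1

/-- the whole range `q < 128 m` -/
def chk (f : Fm) (n B : ℕ) (L : List ℕ) (m : ℕ) : Bool :=
  allb (fun i => allb (fun j => okq f n B L (128 * i + j)) 128) m

theorem lt_of_bound {f : Fm} {B Q : ℕ} (hm : 3 * B < nm f Q) {q C : ℕ} (hC : dn f q * C = nm f q) (hB : C ≤ B) :
    q < Q := by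
  by_contra hcon
  push Not at hcon
  have h1 := nm_mono f hcon
  have h2 : dn f q * C ≤ 3 * B := Nat.mul_le_mul (dn_le f q) hB
  omega

/-- **the sieve** -/
theorem surv {f : Fm} {n B : ℕ} {L : List ℕ} (m : ℕ) (h : chk f n B L m = true) (hm : 3 * B < nm f (128 * m))
    (hm2 : 128 * m ≤ 2 ^ 40) {q : ℕ} (hq : IsPrimePow q) {C : ℕ} (hC : dn f q * C = nm f q) (hn : n ∣ C) (hB : C ≤ B) :
    q ∈ L := by
  have h1 := lt_of_bound hm hC hB
  have h2 : q / 128 < m := Nat.div_lt_of_lt_mul h1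
  have h3 : okq f n B L (128 * (q / 128) + q % 128) = true :=
    allb_iff (allb_iff h h2) (Nat.mod_lt _ (by norm_num))
  rw [Nat.div_add_mod] at h3
  exact mem_of_okq h3 hq (by omega) hC hn hB

end Cfsg.Agent.H805.EPX
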