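import Cfsg.Agent.H805.EPX.Sieve

/-!
# S5745, sporadic socles: the order sieve for large `q` (helper805)
-/

set_option autoImplicit false

namespace Cfsg.Agent.H805.EPX

theorem dvd_of_consec {a m : ℕ} (h : 2 ^ a ∣ m * (m + 1)) : 2 ^ a ∣ m ∨ 2 ^ a ∣ m + 1 := by
  rcases Nat.even_or_odd m with he | ho
  · left
    refine Nat.Coprime.dvd_of_dvd_mul_right (Nat.Coprime.pow_left a ?_) h
    exact (Nat.coprime_two_left).2 he.add_one
  · right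
    refine Nat.Coprime.dvd_of_dvd_mul_left (Nat.Coprime.pow_left a ?_) h
    exact (Nat.coprime_two_left).2 ho

theorem pm {q k : ℕ} (hq : Odd q) (h : 2 ^ (k + 2) ∣ q ^ 2 - 1) : ∃ j, q = 2 ^ (k + 1) * j + 1 ∨ q + 1 = 2 ^ (k + 1) * j := by
  obtain ⟨m, rfl⟩ := hq
  have h1 : (2 * m + 1) ^ 2 - 1 = 4 * (m * (m + 1)) := by
    have : (2 * m + 1) ^ 2 = 4 * (m * (m + 1)) + 1 := by ring
    omega
  have h2 : (2 : ℕ) ^ (k + 2) = 4 * 2 ^ k := by ring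
  rw [h1, h2] at h
  have h3 := Nat.dvd_of_mul_dvd_mul_left (by norm_num) h
  rcases dvd_of_consec h3 with ⟨j, hj⟩ | ⟨j, hj⟩
  · refine ⟨j, Or.inl ?_⟩
    rw [hj]
    ring
  · refine ⟨j, Or.inr ?_⟩
    have : 2 * m + 1 + 1 = 2 * (m + 1) := by ring
    rw [this, hj]
    ring

/-- the identity for `³D₄` -/
theorem td4_eq {q : ℕ} (hq : 1 ≤ q) : nm .td4 q = q ^ 12 * (q ^ 4 + 1 - q ^ 2) * (q ^ 6 - 1) ^ 2 := by
  simp only [nm]
  have h2 : 1 ≤ q ^ 2 := Nat.one_le_pow _ _ hq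
  have h6 : 1 ≤ q ^ 6 := Nat.one_le_pow _ _ hq
  have h42 : q ^ 2 ≤ q ^ 4 + 1 := (Nat.pow_le_pow_right hq (by norm_num)).trans (Nat.le_succ _)
  zify [h2, h6, h42]
  ring

theorem td4_odd {q e : ℕ} (hq : Odd q) (h : 2 ^ (2 * e) ∣ nm .td4 q) : 2 ^ e ∣ q ^ 2 - 1 := by
  have h0 : 1 ≤ q := hq.pos
  have h2 : 1 ≤ q ^ 2 := Nat.one_le_pow _ _ h0
  have h6 : 1 ≤ q ^ 6 := Nat.one_le_pow _ _ h0
  have h42 : q ^ 2 ≤ q ^ 4 + 1 := (Nat.pow_le_pow_right h0 (by norm_num)).trans (Nat.le_succ _)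
  have e1 : nm .td4 q = (q ^ 12 * (q ^ 4 + 1 - q ^ 2) * (q ^ 4 + q ^ 2 + 1) ^ 2) * (q ^ 2 - 1) ^ 2 := by
    rw [td4_eq h0]
    zify [h2, h6, h42]
    ring
  have o1 : Odd (q ^ 4 + q ^ 2 + 1) := by
    have := (hq.pow (n := 4)).add_odd (hq.pow (n := 2))
    exact this.add_one
  have o2 : Odd (q ^ 4 + 1 - q ^ 2) := by
    rw [Nat.odd_sub h42]
    constructor
    · intro h; exfalso
      have := (hq.pow (n := 4)).add_odd odd_one
      exact (Nat.not_odd_iff_even.2 this) h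
    · intro h; exfalso
      exact (Nat.not_even_iff_odd.2 (hq.pow (n := 2))) h
  have o3 : Odd (q ^ 12 * (q ^ 4 + 1 - q ^ 2) * (q ^ 4 + q ^ 2 + 1) ^ 2) := ((hq.pow).mul o2).mul o1.pow
  rw [e1] at h
  have h3 := Nat.Coprime.dvd_of_dvd_mul_left (Nat.Coprime.pow_left (2 * e) ((Nat.coprime_two_left).2 o3)) h
  rw [mul_comm 2 e, pow_mul] at h3
  exact (Nat.pow_dvd_pow_iff (by norm_num)).1 h3

theorem f4_odd {q e : ℕ} (hq : Odd q) (h : 2 ^ (4 * e + 3) ∣ nm .f4 q) : 2 ^ e ∣ q ^ 2 - 1 := by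
  have h0 : 1 ≤ q := hq.pos
  have h2 : 1 ≤ q ^ 2 := Nat.one_le_pow _ _ h0
  have h6 : 1 ≤ q ^ 6 := Nat.one_le_pow _ _ h0
  have h8 : 1 ≤ q ^ 8 := Nat.one_le_pow _ _ h0
  have h12 : 1 ≤ q ^ 12 := Nat.one_le_pow _ _ h0
  have h42 : q ^ 2 ≤ q ^ 4 + 1 := (Nat.pow_le_pow_right h0 (by norm_num)).trans (Nat.le_succ _)
  obtain ⟨u, hu, hu1⟩ : ∃ u, q ^ 2 + 1 = 2 * u ∧ Odd u := by
    obtain ⟨m, rfl⟩ := hq
    exact ⟨2 * m * (m + 1) + 1, by ring, ⟨m * (m + 1), by ring⟩⟩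
  obtain ⟨v, hv, hv1⟩ : ∃ v, q ^ 4 + 1 = 2 * v ∧ Odd v := by
    obtain ⟨m, hm⟩ := hq.pow (n := 2)
    refine ⟨2 * m * (m + 1) + 1, ?_, ⟨m * (m + 1), by ring⟩⟩
    have : q ^ 4 = (q ^ 2) ^ 2 := by ring
    rw [this, hm]
    ring
  have e1 : nm .f4 q = (q ^ 24 * (q ^ 4 + q ^ 2 + 1) ^ 2 * (q ^ 4 + 1 - q ^ 2) * u ^ 2 * v) * (2 ^ 3 * (q ^ 2 - 1) ^ 4) := by
    have e2 : (q ^ 24 * (q ^ 4 + q ^ 2 + 1) ^ 2 * (q ^ 4 + 1 - q ^ 2) * u ^ 2 * v) * (2 ^ 3 * (q ^ 2 - 1) ^ 4) =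
        q ^ 24 * (q ^ 4 + q ^ 2 + 1) ^ 2 * (q ^ 4 + 1 - q ^ 2) * (2 * u) ^ 2 * (2 * v) * (q ^ 2 - 1) ^ 4 := by ring
    rw [e2, ← hu, ← hv]
    simp only [nm]
    zify [h2, h6, h8, h12, h42]
    ring
  have o1 : Odd (q ^ 4 + q ^ 2 + 1) := by
    have := (hq.pow (n := 4)).add_odd (hq.pow (n := 2))
    exact this.add_one
  have o2 : Odd (q ^ 4 + 1 - q ^ 2) := by
    rw [Nat.odd_sub h42]
    constructor
    · intro h; exfalso
      have := (hq.pow (n := 4)).add_odd odd_one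
      exact (Nat.not_odd_iff_even.2 this) h
    · intro h; exfalso
      exact (Nat.not_even_iff_odd.2 (hq.pow (n := 2))) h
  have o3 : Odd (q ^ 24 * (q ^ 4 + q ^ 2 + 1) ^ 2 * (q ^ 4 + 1 - q ^ 2) * u ^ 2 * v) :=
    ((((hq.pow).mul o1.pow).mul o2).mul hu1.pow).mul hv1
  rw [e1] at h
  have h3 := Nat.Coprime.dvd_of_dvd_mul_left (Nat.Coprime.pow_left (4 * e + 3) ((Nat.coprime_two_left).2 o3)) h
  rw [show 2 ^ (4 * e + 3) = 2 ^ 3 * (2 ^ e) ^ 4 by rw [← pow_mul]; ring] at h3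
  exact (Nat.pow_dvd_pow_iff (by norm_num)).1 (Nat.dvd_of_mul_dvd_mul_left (by norm_num) h3)

/-- the check with a filter `c` (`c q = true` : excluded) -/
def chk2 (c : ℕ → Bool) (f : Fm) (n B k J : ℕ) : Bool :=
  allb (fun i => okq f n B [] (2 ^ i)) 40 &&
    allb (fun i => allb (fun j => (c (2 ^ k * (128 * i + j) + 1) || okq f n B [] (2 ^ k * (128 * i + j) + 1)) &&
      (c (2 ^ k * (128 * i + j) - 1) || okq f n B [] (2 ^ k * (128 * i + j) - 1))) 128) J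

theorem surv2 {c : ℕ → Bool} {f : Fm} {n B : ℕ} (k J : ℕ) (h : chk2 c f n B (k + 1) J = true)
    (hm : 3 * B < nm f (2 ^ (k + 1) * (128 * J) - 1)) (hm2 : 2 ^ (k + 1) * (128 * J) ≤ 2 ^ 40)
    (hd : ∀ q, Odd q → n ∣ nm f q → 2 ^ (k + 2) ∣ q ^ 2 - 1) {q : ℕ} (hq : IsPrimePow q)
    (hc : n ∣ nm f q → c q = false) {C : ℕ} (hC : dn f q * C = nm f q) (hn : n ∣ C) (hB : C ≤ B) : False := by
  have h1 := lt_of_bound hm hC hB
  have hlt : q < 2 ^ 40 := by omega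
  rw [chk2, Bool.and_eq_true] at h
  have hdv : n ∣ nm f q := hC ▸ hn.mul_left _
  rcases Nat.even_or_odd q with he | ho
  · obtain ⟨r, i, hr, hi, rfl⟩ := hq
    have h2 := Nat.prime_two.dvd_of_dvd_pow (even_iff_two_dvd.1 he)
    rw [Nat.prime_dvd_prime_iff_eq Nat.prime_two hr.nat_prime] at h2
    subst h2
    have h3 : i < 40 := (Nat.pow_lt_pow_iff_right (by norm_num)).1 hlt
    have h4 := mem_of_okq (allb_iff h.1 h3) ⟨2, i, hr, hi, rfl⟩ hlt hC hn hB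
    simp at h4
  · obtain ⟨j, hj⟩ := pm ho (hd q ho hdv)
    have hpos : 0 < 2 ^ (k + 1) := by positivity
    have hjJ : j < 128 * J := by
      by_contra hcon
      push Not at hcon
      have := Nat.mul_le_mul_left (2 ^ (k + 1)) hcon
      omega
    have h2 : j / 128 < J := Nat.div_lt_of_lt_mul hjJ
    have h3 := allb_iff (allb_iff h.2 h2) (Nat.mod_lt j (by norm_num : 0 < 128))
    simp only [Nat.div_add_mod, Bool.and_eq_true] at h3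
    have hcq := hc hdv
    have h4 : (c q || okq f n B [] q) = true := by
      rcases hj with hj | hj
      · rw [hj]; exact h3.1
      · have : q = 2 ^ (k + 1) * j - 1 := by omega
        rw [this]; exact h3.2
    rw [hcq, Bool.false_or] at h4
    have h5 := mem_of_okq h4 hq hlt hC hn hB
    simp at h5

/-- the filter for the Monster -/
def cM (q : ℕ) : Bool := !(Nat.beq (q % 3) 0) && !(Nat.beq ((q ^ 6 - 1) % 59049) 0)

theorem cM_false {q : ℕ} (hq : 1 ≤ q) (h : 3 ^ 20 ∣ nm .td4 q) : cM q = false := by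
  unfold cM
  by_cases h3 : q % 3 = 0
  · rw [h3]; rfl
  · have h42 : q ^ 2 ≤ q ^ 4 + 1 := (Nat.pow_le_pow_right hq (by norm_num)).trans (Nat.le_succ _)
    have hc : Nat.Coprime 3 (q ^ 12 * (q ^ 4 + 1 - q ^ 2)) := by
      apply Nat.Coprime.mul_right
      · exact Nat.Coprime.pow_right _ ((Nat.Prime.coprime_iff_not_dvd Nat.prime_three).2 fun h => h3 (Nat.mod_eq_zero_of_dvd h))
      · rw [Nat.Prime.coprime_iff_not_dvd Nat.prime_three]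
        intro hd
        have e1 : (q ^ 4 + 1 - q ^ 2) + q ^ 2 = q ^ 4 + 1 := Nat.sub_add_cancel h42
        have e2 : ((q ^ 4 + 1 - q ^ 2) + q ^ 2) % 3 = (q ^ 2) % 3 := by omega
        rw [e1] at e2
        have e3 : q % 3 = 1 ∨ q % 3 = 2 := by omega
        have e4 : (q ^ 4 + 1) % 3 = ((q % 3) ^ 4 + 1) % 3 := by simp [Nat.pow_mod, Nat.add_mod]
        have e5 : (q ^ 2) % 3 = ((q % 3) ^ 2) % 3 := Nat.pow_mod _ _ _
        rw [e4, e5] at e2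
        rcases e3 with e3 | e3 <;> rw [e3] at e2 <;> norm_num at e2
    rw [td4_eq hq] at h
    have h1 := Nat.Coprime.dvd_of_dvd_mul_left (Nat.Coprime.pow_left 20 hc) h
    rw [show (3 : ℕ) ^ 20 = (3 ^ 10) ^ 2 by norm_num] at h1
    have h2 := (Nat.pow_dvd_pow_iff (by norm_num)).1 h1
    have h4 : (q ^ 6 - 1) % 59049 = 0 := Nat.mod_eq_zero_of_dvd (by
      have : (3 : ℕ) ^ 10 = 59049 := by norm_num
      rwa [this] at h2)
    rw [h4]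
    rw [Bool.and_eq_false_iff]
    right
    rfl

end Cfsg.Agent.H805.EPX
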